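import Groth.Agent.Ega4fib.H144.SrcLocus

/-!
# Conditions on the fibres, with the hypothesis that the base rings are fields as `IsField`
-/

set_option autoImplicit false
universe u
open CategoryTheory CategoryTheory.Limits AlgebraicGeometry Topology

namespace Groth.Agent.Ega4fib.H142.FibreCondF

open Groth.Agent.Ega4fib.H144.SrcLocus

/-- A pointwise condition on schemes locally of finite type over fields, compatible with field
extensions and open immersions. -/
structure FibreCond (P : ∀ {K : CommRingCat.{u}} {Z : Scheme.{u}}, (Z ⟶ Spec K) → Z → Prop) :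
    Prop where
  bc : ∀ {K L : CommRingCat.{u}} (_ : IsField K) (_ : IsField L) {i : K ⟶ L} {Z Z' : Scheme.{u}}
    {g : Z ⟶ Spec K} {g' : Z' ⟶ Spec L} {p : Z' ⟶ Z}, IsPullback p g' g (Spec.map i) →
    LocallyOfFiniteType g → ∀ z' : Z', P g' z' ↔ P g (p z')
  openSrc : ∀ {K : CommRingCat.{u}} (_ : IsField K) {U Z : Scheme.{u}} (j : U ⟶ Z) (g : Z ⟶ Spec K),
    IsOpenImmersion j → LocallyOfFiniteType g → ∀ v : U, P (j ≫ g) v ↔ P g (j v)

/-- The condition at the point `x` on the fibre through `x`. -/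
def onFibre (P : ∀ {K : CommRingCat.{u}} {Z : Scheme.{u}}, (Z ⟶ Spec K) → Z → Prop)
    {X S : Scheme.{u}} (f : X ⟶ S) (x : X) : Prop :=
  P (f.fiberToSpecResidueField (f x)) (f.asFiber x)

variable {P : ∀ {K : CommRingCat.{u}} {Z : Scheme.{u}}, (Z ⟶ Spec K) → Z → Prop}

theorem onFibre_iff {X S : Scheme.{u}} (f : X ⟶ S) (x : X) (s : S) (z : f.fiber s)
    (hz : f.fiberι s z = x) : onFibre P f x ↔ P (f.fiberToSpecResidueField s) z := by
  have hs : f x = s := by
    rw [← hz, ← Scheme.Hom.comp_apply, Scheme.Hom.fiber_fac, Scheme.Hom.comp_apply]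
    have := (S.fromSpecResidueField s).isEmbedding
    have h := Set.mem_range_self (f := S.fromSpecResidueField s) (f.fiberToSpecResidueField s z)
    rw [Scheme.range_fromSpecResidueField] at h
    exact h
  subst hs
  have : z = f.asFiber x := (f.fiberι _).isEmbedding.injective (by rw [hz, Scheme.Hom.fiberι_asFiber])
  rw [this]
  rfl

theorem FibreCond.isSrcLocus (hP : FibreCond @P) : IsSrcLocus (fun {_ _} f x => onFibre @P f x) where
  bc := by
    intro X S X' S' f f' g g' h hf x'
    obtain ⟨m, hm, h5⟩ : ∃ m : f'.fiber (f' x') ⟶ f.fiber (g (f' x')),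
        IsPullback m (f'.fiberToSpecResidueField (f' x')) (f.fiberToSpecResidueField (g (f' x')))
          (Spec.map (g.residueFieldMap (f' x'))) ∧ m ≫ f.fiberι (g (f' x')) = f'.fiberι (f' x') ≫ g' :=
      ⟨_, isPullback_fiberToSpecResidueField_of_isPullback h (f' x'), pullback.lift_fst _ _ _⟩
    have h4 := hP.bc (Field.toIsField _) (Field.toIsField _) hm
      (locallyOfFiniteType_fiberToSpec f (g (f' x'))) (f'.asFiber x')
    refine h4.trans (onFibre_iff f (g' x') _ _ ?_).symm
    rw [← Scheme.Hom.comp_apply, h5, Scheme.Hom.comp_apply, Scheme.Hom.fiberι_asFiber]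
  openSrc := by
    intro U X S j f hj hf v
    obtain ⟨m, hm1, hm2, hm3⟩ : ∃ m : (j ≫ f).fiber ((j ≫ f) v) ⟶ f.fiber ((j ≫ f) v),
        IsPullback m ((j ≫ f).fiberι ((j ≫ f) v)) (f.fiberι ((j ≫ f) v)) j ∧
        m ≫ f.fiberToSpecResidueField _ = (j ≫ f).fiberToSpecResidueField _ ∧
        m ≫ f.fiberι _ = (j ≫ f).fiberι _ ≫ j := by
      have hs := isPullback_fiber f ((j ≫ f) v)
      have hs' := isPullback_fiber (j ≫ f) ((j ≫ f) v)
      refine ⟨hs.lift ((j ≫ f).fiberι _ ≫ j) ((j ≫ f).fiberToSpecResidueField _) ?_, ?_,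
        hs.lift_snd _ _ _, hs.lift_fst _ _ _⟩
      · rw [Category.assoc, Scheme.Hom.fiber_fac]
      · refine IsPullback.of_right (h₁₂ := f.fiberToSpecResidueField _) (h₂₂ := f)
          (v₁₃ := S.fromSpecResidueField _) ?_ (hs.lift_fst _ _ _) hs.flip
        rw [hs.lift_snd]
        exact hs'.flip
    have hmo : IsOpenImmersion m := MorphismProperty.of_isPullback (P := @IsOpenImmersion) hm1.flip hj
    have := locallyOfFiniteType_fiberToSpec f ((j ≫ f) v)
    have h1 := hP.openSrc (Field.toIsField _) m (f.fiberToSpecResidueField _) hmo inferInstance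
      ((j ≫ f).asFiber v)
    rw [hm2] at h1
    refine h1.trans (onFibre_iff f (j v) _ _ ?_).symm
    rw [← Scheme.Hom.comp_apply, hm3, Scheme.Hom.comp_apply, Scheme.Hom.fiberι_asFiber]

end Groth.Agent.Ega4fib.H142.FibreCondF
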