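import Groth.Agent.Ega4fib.H144.SrcLocusForms
import Groth.Agent.Ega4fib.H142.FibreCondF
import Groth.Agent.Flat2D.CMLocus
import Groth.Agent.Flat2D.CMBase
import Groth.Agent.Flat2D.EssRes

/-!
# The Cohen-Macaulay condition on the fibres: inputs for local constructibility in the source
-/

set_option autoImplicit false
universe u
open CategoryTheory CategoryTheory.Limits AlgebraicGeometry Topology

namespace Groth.Agent.Ega4fib.H142.CMInputs

open Groth.Agent.Ega4fib.H144.SrcLocus

/-- A scheme locally of finite type over a field is locally Noetherian. -/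
theorem isLocallyNoetherian_of_isField {K : CommRingCat.{u}} (hK : IsField K) {Z : Scheme.{u}}
    (g : Z ⟶ Spec K) [LocallyOfFiniteType g] : IsLocallyNoetherian Z := by
  have : IsNoetherianRing K := by
    let := hK.toField
    infer_instance
  exact LocallyOfFiniteType.isLocallyNoetherian g

/-- The local ring at `z` is Cohen-Macaulay, as a condition on schemes over fields. -/
def CMCond {K : CommRingCat.{u}} {Z : Scheme.{u}} (_g : Z ⟶ Spec K) (z : Z) : Prop :=
  LocCoh.IsCohenMacaulayLocalRing (Z.presheaf.stalk z)

theorem fibreCond_cm : FibreCondF.FibreCond.{u} @CMCond where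
  bc := by
    intro K L hK hL i Z Z' g g' p H hg z'
    have h1 : LocallyOfFiniteType g := hg
    have h2 : LocallyOfFiniteType g' := MorphismProperty.of_isPullback (P := @LocallyOfFiniteType) H hg
    have h3 : IsLocallyNoetherian Z := isLocallyNoetherian_of_isField hK g
    have h4 : IsLocallyNoetherian Z' := isLocallyNoetherian_of_isField hL g'
    exact Groth.Agent.Flat2D.CMBase.cm_stalk_iff_of_field hK hL H z'
      (Or.inr (Groth.Agent.Flat2D.EssRes.essFiniteType_of_SpecMap_eq _ _ _
        (Groth.Agent.Flat2D.CMBase.SpecMap_resMap _ _)))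
  openSrc := by
    intro K hK U Z j g hj hg v
    exact Ega4C.FlatLocal.isCM_congr (asIso (j.stalkMap v)).commRingCatIsoToRingEquiv.symm

/-- The condition that the fibre of `f` through `x` is Cohen-Macaulay at `x`. -/
def CMFibre {X S : Scheme.{u}} (f : X ⟶ S) (x : X) : Prop :=
  LocCoh.IsCohenMacaulayLocalRing ((f.fiber (f x)).presheaf.stalk (f.asFiber x))

theorem isSrcLocus_cm : IsSrcLocus.{u} @CMFibre :=
  fibreCond_cm.isSrcLocus

/-- For a flat morphism locally of finite presentation the locus is open. -/
theorem isOpen_cmFibre {X S : Scheme.{u}} (f : X ⟶ S) [Flat f] [LocallyOfFinitePresentation f] :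
    IsOpen {x : X | CMFibre f x} := by
  have h := Groth.Agent.Flat2D.CMLocus.isOpen_cmLocus f
  convert h using 1
  ext x
  exact (and_iff_right (Flat.stalkMap f x)).symm

/-- The locus where the fibres are Cohen-Macaulay is locally constructible in the source. -/
theorem isLocallyConstructible_cmFibre {X S : Scheme.{u}} (f : X ⟶ S)
    [LocallyOfFinitePresentation f] : IsLocallyConstructible {x : X | CMFibre f x} := by
  refine isSrcLocus_cm.isLocallyConstructible_of_flat (fun {A B} _ φ hA hφ hfl => ?_) f
  have hAn : IsNoetherianRing A := Algebra.FiniteType.isNoetherianRing ℤ A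
  have hBn : IsNoetherianRing B := by
    algebraize [φ.hom]
    exact Algebra.FiniteType.isNoetherianRing A B
  have hfp : LocallyOfFinitePresentation (Spec.map φ) := by
    rw [HasRingHomProperty.Spec_iff (P := @LocallyOfFinitePresentation)]
    exact RingHom.FinitePresentation.of_finiteType.mp hφ
  have hflat : Flat (Spec.map φ) := by
    rw [Flat.SpecMap_iff]
    exact hfl
  have ho : IsOpen {x : ↥(Spec B) | CMFibre (Spec.map φ) x} := isOpen_cmFibre (Spec.map φ)
  have hN : TopologicalSpace.NoetherianSpace ↥(Spec B) :=
    inferInstanceAs (TopologicalSpace.NoetherianSpace (PrimeSpectrum B))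
  have hret : IsRetrocompact {x : ↥(Spec B) | CMFibre (Spec.map φ) x} := fun U _ _ =>
    TopologicalSpace.NoetherianSpace.isCompact _
  exact hret.isConstructible ho

end Groth.Agent.Ega4fib.H142.CMInputs
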